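import Groth.Agent.Pi1.H170.KummerStage
import Groth.Agent.Pi1.H393.StarNormal

/-!
# The Kummer stage of the relative Abhyankar lemma, unconditional form
-/

set_option autoImplicit false

universe u

namespace Groth.Agent.Pi1.H170.KummerStageMain

/-- (S1) The Kummer stage. -/
theorem kummerStage : Groth.Agent.Pi1.H391.Stmts3.KummerStage.{u} :=
  Groth.Agent.Pi1.H170.KummerStage.kummerStage Groth.Agent.Pi1.H393.StarNormal.starNormal

end Groth.Agent.Pi1.H170.KummerStageMain
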